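/-
S1144 (Fong-Seitz): a finite special Jordan division ring is a field (generic minimal polynomial and Chevalley-Warning).
-/
import Mathlib

set_option autoImplicit false

namespace CL.FS

open Polynomial

section core

variable {F : Type*} [Field F] {m : Type*} [Fintype m] [DecidableEq m] {n : ℕ}

/-- the generic element -/
noncomputable def jdX (b : Fin n → Matrix m m F) : Matrix m m (MvPolynomial (Fin n) F) :=
  Matrix.of fun i j => ∑ k, MvPolynomial.X k * MvPolynomial.C (b k i j)

omit [Fintype m] [DecidableEq m] in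
theorem jdX_eval (b : Fin n → Matrix m m F) (t : Fin n → F) :
    (jdX b).map (MvPolynomial.eval t) = ∑ k, t k • b k := by
  ext i j
  simp [jdX, Matrix.sum_apply]

theorem jd_tdeg (b : Fin n → Matrix m m F) :
    ((MvPolynomial.optionEquivLeft F (Fin n)).symm (jdX b).charpoly).totalDegree ≤ Fintype.card m := by
  set e := (MvPolynomial.optionEquivLeft F (Fin n)).symm with he
  have h1 : ∀ i j, (e ((jdX b).charmatrix i j)).totalDegree ≤ 1 := by
    intro i j
    have h2 : (e (C (jdX b i j))).totalDegree ≤ 1 := by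
      simp only [jdX, Matrix.of_apply, map_sum, map_mul, he, MvPolynomial.optionEquivLeft_symm_C_X,
        MvPolynomial.optionEquivLeft_symm_C_C]
      refine MvPolynomial.totalDegree_finsetSum_le fun k _ => ?_
      refine (MvPolynomial.totalDegree_mul _ _).trans ?_
      rw [MvPolynomial.totalDegree_X, MvPolynomial.totalDegree_C]
    by_cases hij : i = j
    · subst hij
      rw [Matrix.charmatrix_apply_eq, map_sub]
      refine (MvPolynomial.totalDegree_sub _ _).trans (max_le ?_ h2)
      rw [he, MvPolynomial.optionEquivLeft_symm_X, MvPolynomial.totalDegree_X]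
    · rw [Matrix.charmatrix_apply_ne _ _ _ hij, map_neg, MvPolynomial.totalDegree_neg]
      exact h2
  rw [Matrix.charpoly, Matrix.det_apply', map_sum]
  refine MvPolynomial.totalDegree_finsetSum_le fun σ _ => ?_
  rw [map_mul, map_prod]
  refine (MvPolynomial.totalDegree_mul _ _).trans ?_
  have h3 : (e (((Equiv.Perm.sign σ : ℤˣ) : ℤ) : (MvPolynomial (Fin n) F)[X])).totalDegree = 0 := by
    rw [map_intCast, ← map_intCast (MvPolynomial.C : F →+* MvPolynomial (Option (Fin n)) F),
      MvPolynomial.totalDegree_C]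
  rw [h3, zero_add]
  refine (MvPolynomial.totalDegree_finsetProd _ _).trans ?_
  refine (Finset.sum_le_sum fun i _ => h1 (σ i) i).trans ?_
  simp

/-- a monic divisor of the generic characteristic polynomial has a constant term of degree at most its own degree -/
theorem jd_deg (b : Fin n → Matrix m m F) (g : (MvPolynomial (Fin n) F)[X]) (hg : g.Monic)
    (hd : g ∣ (jdX b).charpoly) : (g.coeff 0).totalDegree ≤ g.natDegree := by
  obtain ⟨h, hh⟩ := hd
  have hc := (jdX b).charpoly_monic
  have hm : h.Monic := by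
    rw [hh] at hc
    exact hg.of_mul_monic_left hc
  have hn : g.natDegree + h.natDegree = Fintype.card m := by
    rw [← hg.natDegree_mul hm, ← hh, Matrix.charpoly_natDegree_eq_dim]
  set e := MvPolynomial.optionEquivLeft F (Fin n) with he
  have hG : e.symm g ≠ 0 := fun h0 => hg.ne_zero (by simpa using congrArg e h0)
  have hH : e.symm h ≠ 0 := fun h0 => hm.ne_zero (by simpa using congrArg e h0)
  have h1 := jd_tdeg b
  rw [hh, map_mul, MvPolynomial.totalDegree_mul_of_isDomain hG hH] at h1
  have h2 : h.natDegree ≤ (e.symm h).totalDegree := by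
    have := MvPolynomial.natDegree_optionEquivLeft F (e.symm h)
    rw [← he, AlgEquiv.apply_symm_apply] at this
    rw [this]
    exact MvPolynomial.degreeOf_le_totalDegree _ _
  have h3 := MvPolynomial.totalDegree_coeff_optionEquivLeft_le F (Fin n) (e.symm g) 0
  rw [← he, AlgEquiv.apply_symm_apply] at h3
  omega

/-- Chevalley-Warning: an annihilating monic divisor has degree at least the number of variables -/
theorem jd_cw [Finite F] [Nonempty m] (b : Fin n → Matrix m m F)
    (hb : ∀ t : Fin n → F, t ≠ 0 → (∑ k, t k • b k).det ≠ 0)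
    (g : (MvPolynomial (Fin n) F)[X]) (hg : g.Monic) (hd : g ∣ (jdX b).charpoly) (h0 : aeval (jdX b) g = 0) :
    n ≤ g.natDegree := by
  classical
  by_contra hlt
  push Not at hlt
  have := Fintype.ofFinite F
  obtain ⟨p, hp⟩ := CharP.exists F
  have hpp : p.Prime := CharP.char_is_prime F p
  have h1 := char_dvd_card_solutions p (f := g.coeff 0)
    (by rw [Fintype.card_fin]; exact (jd_deg b g hg hd).trans_lt hlt)
  have hz : MvPolynomial.eval (0 : Fin n → F) (g.coeff 0) = 0 := by
    have h2 := map_aeval_eq_aeval_map (φ := MvPolynomial.eval (0 : Fin n → F))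
      (ψ := (MvPolynomial.eval (0 : Fin n → F)).mapMatrix (m := m)) (by
        refine RingHom.ext fun q => ?_
        simp only [RingHom.comp_apply, RingHom.mapMatrix_apply, Matrix.algebraMap_eq_diagonal]
        rw [Matrix.diagonal_map (map_zero _)]
        rfl) g (jdX b)
    rw [h0, map_zero, RingHom.mapMatrix_apply, jdX_eval] at h2
    simp only [Pi.zero_apply, zero_smul, Finset.sum_const_zero] at h2
    rw [← coeff_zero_eq_aeval_zero', coeff_map] at h2
    exact (algebraMap F (Matrix m m F)).injective (by rw [← h2, map_zero])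
  have hnz : ∀ t : Fin n → F, MvPolynomial.eval t (g.coeff 0) = 0 → t = 0 := by
    intro t ht
    by_contra htn
    apply hb t htn
    obtain ⟨h, hh⟩ := hd
    rw [← jdX_eval]
    have := RingHom.map_det (MvPolynomial.eval t) (jdX b)
    rw [RingHom.mapMatrix_apply] at this
    rw [← this, Matrix.det_eq_sign_charpoly_coeff, hh, mul_coeff_zero, map_mul, map_mul, ht, zero_mul, mul_zero]
  have hc : Fintype.card {x : Fin n → F // MvPolynomial.eval x (g.coeff 0) = 0} = 1 := by
    rw [Fintype.card_eq_one_iff]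
    exact ⟨⟨0, hz⟩, fun y => Subtype.ext (hnz _ y.2)⟩
  rw [hc] at h1
  exact hpp.one_lt.ne' (Nat.dvd_one.1 h1)

theorem jd_span {K A : Type*} [Field K] [Ring A] [Algebra K A] (s : Set A) (S : Submodule K A)
    (hS : S = Submodule.span K s) (h2 : ∀ a ∈ s, ∀ b ∈ s, a * b * a ∈ S)
    (h3 : ∀ a ∈ s, ∀ b ∈ s, ∀ c ∈ s, a * b * c + c * b * a ∈ S) : ∀ a ∈ S, ∀ b ∈ S, a * b * a ∈ S := by
  have t1 : ∀ a ∈ s, ∀ b ∈ s, ∀ c ∈ S, a * b * c + c * b * a ∈ S := by
    intro a ha b hb c hc
    rw [hS] at hc
    induction hc using Submodule.span_induction with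
    | mem x hx => exact h3 a ha b hb x hx
    | zero => simp
    | add x y _ _ hx hy =>
      have : a * b * (x + y) + (x + y) * b * a = (a * b * x + x * b * a) + (a * b * y + y * b * a) := by noncomm_ring
      rw [this]; exact S.add_mem hx hy
    | smul r x _ hx =>
      have : a * b * (r • x) + (r • x) * b * a = r • (a * b * x + x * b * a) := by
        simp only [smul_add, mul_smul_comm, smul_mul_assoc]
      rw [this]; exact S.smul_mem r hx
  have t2 : ∀ b ∈ s, ∀ c ∈ S, ∀ a ∈ S, a * b * c + c * b * a ∈ S := by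
    intro b hb c hc a ha
    rw [hS] at ha
    induction ha using Submodule.span_induction with
    | mem x hx => exact t1 x hx b hb c hc
    | zero => simp
    | add x y _ _ hx hy =>
      have : (x + y) * b * c + c * b * (x + y) = (x * b * c + c * b * x) + (y * b * c + c * b * y) := by noncomm_ring
      rw [this]; exact S.add_mem hx hy
    | smul r x _ hx =>
      have : (r • x) * b * c + c * b * (r • x) = r • (x * b * c + c * b * x) := by
        simp only [smul_add, mul_smul_comm, smul_mul_assoc]
      rw [this]; exact S.smul_mem r hx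
  have t3 : ∀ b ∈ s, ∀ a ∈ S, a * b * a ∈ S := by
    intro b hb a ha
    have ha' := ha
    rw [hS] at ha
    induction ha using Submodule.span_induction with
    | mem x hx => exact h2 x hx b hb
    | zero => simp
    | add x y hx' hy' hx hy =>
      rw [← hS] at hx' hy'
      have : (x + y) * b * (x + y) = x * b * x + y * b * y + (x * b * y + y * b * x) := by noncomm_ring
      rw [this]; exact S.add_mem (S.add_mem (hx hx') (hy hy')) (t2 b hb y hy' x hx')
    | smul r x hx' hx =>
      rw [← hS] at hx'
      have : (r • x) * b * (r • x) = (r * r) • (x * b * x) := by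
        simp only [mul_smul_comm, smul_mul_assoc, smul_smul]
      rw [this]; exact S.smul_mem _ (hx hx')
  intro a ha b hb
  rw [hS] at hb
  induction hb using Submodule.span_induction with
  | mem x hx => exact t3 x hx a ha
  | zero => simp
  | add x y _ _ hx hy =>
    have : a * (x + y) * a = a * x * a + a * y * a := by noncomm_ring
    rw [this]; exact S.add_mem hx hy
  | smul r x _ hx =>
    have : a * (r • x) * a = r • (a * x * a) := by simp only [mul_smul_comm, smul_mul_assoc]
    rw [this]; exact S.smul_mem _ hx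

theorem jd_core [Finite F] [Nonempty m] (W : Submodule F (Matrix m m F)) (h1 : (1 : Matrix m m F) ∈ W)
    (hU : ∀ a ∈ W, ∀ b ∈ W, a * b * a ∈ W) (hdet : ∀ a ∈ W, a ≠ 0 → a.det ≠ 0) :
    ∀ a ∈ W, ∀ b ∈ W, a * b = b * a := by
  classical
  set n := Module.finrank F W
  let β := Module.finBasis F W
  let b : Fin n → Matrix m m F := fun k => (β k : Matrix m m F)
  let P := MvPolynomial (Fin n) F
  let K := FractionRing P
  let ι : Matrix m m F →+* Matrix m m K := ((algebraMap P K).comp MvPolynomial.C).mapMatrix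
  let ψ : Matrix m m P →+* Matrix m m K := (algebraMap P K).mapMatrix
  have hinj : Function.Injective (algebraMap P K) := IsFractionRing.injective P K
  have hι : Function.Injective ι := fun x y h => by
    ext i j
    have := congrFun (congrFun h i) j
    exact MvPolynomial.C_injective (Fin n) F (hinj this)
  have hψ : Function.Injective ψ := fun x y h => by
    ext1 i j
    exact hinj (congrFun (congrFun h i) j)
  let S : Submodule K (Matrix m m K) := Submodule.span K (Set.range fun k => ι (b k))
  have hsm : ∀ (c : F) (x : Matrix m m F), ι (c • x) = (algebraMap P K (MvPolynomial.C c)) • ι x := by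
    intro c x
    ext i j
    simp [ι]
  have hWS : ∀ w ∈ W, ι w ∈ S := by
    intro w hw
    have h := congrArg (fun z : W => (z : Matrix m m F)) (β.sum_repr ⟨w, hw⟩)
    simp only [Submodule.coe_sum, Submodule.coe_smul] at h
    rw [← h, map_sum]
    refine S.sum_mem fun k _ => ?_
    rw [hsm]
    exact S.smul_mem _ (Submodule.subset_span ⟨k, rfl⟩)
  have hbW : ∀ k, b k ∈ W := fun k => (β k).2
  have hSU : ∀ u ∈ S, ∀ v ∈ S, u * v * u ∈ S := by
    refine jd_span _ S rfl ?_ ?_
    · rintro _ ⟨i, rfl⟩ _ ⟨j, rfl⟩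
      rw [← map_mul, ← map_mul]
      exact hWS _ (hU _ (hbW i) _ (hbW j))
    · rintro _ ⟨i, rfl⟩ _ ⟨j, rfl⟩ _ ⟨k, rfl⟩
      rw [← map_mul, ← map_mul, ← map_mul, ← map_mul, ← map_add]
      apply hWS
      have : b i * b j * b k + b k * b j * b i =
          (b i + b k) * b j * (b i + b k) - b i * b j * b i - b k * b j * b k := by noncomm_ring
      rw [this]
      exact W.sub_mem (W.sub_mem (hU _ (W.add_mem (hbW i) (hbW k)) _ (hbW j)) (hU _ (hbW i) _ (hbW j)))
        (hU _ (hbW k) _ (hbW j))
  set x := ψ (jdX b) with hx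
  have hxS : x ∈ S := by
    have : x = ∑ k, (algebraMap P K (MvPolynomial.X k)) • ι (b k) := by
      ext i j
      simp only [hx, ψ, ι, jdX, Matrix.sum_apply, RingHom.mapMatrix_apply, Matrix.map_apply, Matrix.of_apply,
        Matrix.smul_apply, smul_eq_mul, map_sum, map_mul, RingHom.comp_apply]
    rw [this]
    exact S.sum_mem fun k _ => S.smul_mem _ (Submodule.subset_span ⟨k, rfl⟩)
  have hpow : ∀ k : ℕ, x ^ k ∈ S ∧ x ^ (k + 1) ∈ S := by
    intro k
    induction k with
    | zero => exact ⟨by rw [pow_zero, ← map_one ι]; exact hWS _ h1, by rw [zero_add, pow_one]; exact hxS⟩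
    | succ k ih =>
      refine ⟨ih.2, ?_⟩
      have : x ^ (k + 1 + 1) = x * x ^ k * x := by rw [pow_succ, pow_succ']
      rw [this]
      exact hSU _ hxS _ ih.1
  have hint : IsIntegral K x := Algebra.IsIntegral.isIntegral x
  have hdv : minpoly K x ∣ (jdX b).charpoly.map (algebraMap P K) := by
    rw [← Matrix.charpoly_map]
    exact Matrix.minpoly_dvd_charpoly x
  obtain ⟨g, hg⟩ := IsIntegrallyClosed.eq_map_mul_C_of_dvd K (jdX b).charpoly_monic hdv
  rw [(minpoly.monic hint).leadingCoeff, C_1, mul_one] at hg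
  have hgm : g.Monic := monic_of_injective hinj (hg ▸ minpoly.monic hint)
  have hgd : g ∣ (jdX b).charpoly := (Polynomial.map_dvd_map _ hinj hgm).1 (hg ▸ hdv)
  have hg0 : aeval (jdX b) g = 0 := by
    apply hψ
    rw [map_aeval_eq_aeval_map (φ := algebraMap P K) (ψ := ψ) (by
        refine RingHom.ext fun q => ?_
        simp only [ψ, RingHom.comp_apply, RingHom.mapMatrix_apply, Matrix.algebraMap_eq_diagonal]
        rw [Matrix.diagonal_map (map_zero _)]
        rfl) g (jdX b), hg, map_zero]
    exact minpoly.aeval K x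
  have hn : n ≤ (minpoly K x).natDegree := by
    rw [← hg, hgm.natDegree_map]
    refine jd_cw b (fun t ht => hdet _ (W.sum_mem fun k _ => W.smul_mem _ (hbW k)) fun h0 => ht ?_) g hgm hgd hg0
    have h2 : ∑ k, t k • β k = 0 := by
      apply Subtype.ext
      rw [Submodule.coe_sum]
      exact h0
    funext k
    exact Fintype.linearIndependent_iff.1 β.linearIndependent t h2 k
  let V : Submodule K (Matrix m m K) :=
    Submodule.span K (Set.range fun i : Fin (minpoly K x).natDegree => x ^ (i : ℕ))
  have hVS : V ≤ S := Submodule.span_le.2 (by rintro _ ⟨i, rfl⟩; exact (hpow i).1)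
  have hV : V = S := by
    refine Submodule.eq_of_le_of_finrank_le hVS ?_
    have e1 : Module.finrank K V = (minpoly K x).natDegree := by
      rw [finrank_span_eq_card (linearIndependent_pow x), Fintype.card_fin]
    have e2 : Module.finrank K S ≤ n := by
      have := finrank_range_le_card (R := K) (fun k => ι (b k))
      rwa [Fintype.card_fin] at this
    omega
  have hc1 : ∀ u ∈ V, Commute x u := by
    intro u hu
    induction hu using Submodule.span_induction with
    | mem y hy => obtain ⟨i, rfl⟩ := hy; exact (Commute.refl x).pow_right _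
    | zero => exact Commute.zero_right x
    | add y z _ _ hy hz => exact hy.add_right hz
    | smul r y _ hy => exact hy.smul_right r
  have hc2 : ∀ v ∈ V, ∀ u ∈ V, Commute u v := by
    intro v hv u hu
    induction hu using Submodule.span_induction with
    | mem y hy => obtain ⟨i, rfl⟩ := hy; exact (hc1 v hv).pow_left _
    | zero => exact Commute.zero_left v
    | add y z _ _ hy hz => exact hy.add_left hz
    | smul r y _ hy => exact hy.smul_left r
  intro a ha c hc
  apply hι
  rw [map_mul, map_mul]
  exact hc2 _ (hV ▸ hWS c hc) _ (hV ▸ hWS a ha)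

end core

section ring

variable {R : Type*} [Ring R]

/-- Hua's identity -/
theorem jd_hua (J : AddSubgroup R) (hinv : ∀ a ∈ J, a ≠ 0 → ∃ b ∈ J, a * b = 1 ∧ b * a = 1) :
    ∀ a ∈ J, ∀ b ∈ J, a * b * a ∈ J := by
  intro a ha b hb
  by_cases ha0 : a = 0
  · rw [ha0, mul_zero]; exact J.zero_mem
  by_cases hb0 : b = 0
  · rw [hb0, mul_zero, zero_mul]; exact J.zero_mem
  obtain ⟨a', ha', a1, a2⟩ := hinv a ha ha0
  obtain ⟨b', hb', b1, b2⟩ := hinv b hb hb0
  by_cases hu0 : b' - a = 0
  · have : a = b' := (sub_eq_zero.1 hu0).symm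
    rw [this, b2, one_mul]; exact hb'
  obtain ⟨u, hu, u1, u2⟩ := hinv _ (J.sub_mem hb' ha) hu0
  have e1 : (a' + u) * (a - a * b * a) = 1 := by
    have f1 : a - a * b * a = (b' - a) * b * a := by rw [sub_mul, b2, sub_mul, one_mul]
    have f2 : a' + u = a' * b' * u := by
      have : a' * b' * u = a' * ((b' - a) * u) + a' * a * u := by noncomm_ring
      rw [this, u1, a2, mul_one, one_mul]
    rw [f1, f2]
    calc a' * b' * u * ((b' - a) * b * a) = a' * (b' * ((u * (b' - a)) * b)) * a := by noncomm_ring
      _ = 1 := by rw [u2, one_mul, b2, mul_one, a2]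
  have hw0 : a' + u ≠ 0 := by
    intro h
    rw [h, zero_mul] at e1
    apply ha0
    rw [← mul_one a, ← e1, mul_zero]
  obtain ⟨w, hw, _, w2⟩ := hinv _ (J.add_mem ha' hu) hw0
  have : w = a - a * b * a := by
    rw [← mul_one w, ← e1, ← mul_assoc, w2, one_mul]
  have h3 : a * b * a = a - w := by rw [this]; abel
  rw [h3]
  exact J.sub_mem ha hw

theorem jd_comm [Finite R] (J : AddSubgroup R) (h1 : (1 : R) ∈ J)
    (hinv : ∀ a ∈ J, a ≠ 0 → ∃ b ∈ J, a * b = 1 ∧ b * a = 1) : ∀ a ∈ J, ∀ b ∈ J, a * b = b * a := by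
  classical
  rcases subsingleton_or_nontrivial R with hR | hR
  · intro a _ b _; exact Subsingleton.elim _ _
  obtain ⟨p, hp⟩ := CharP.exists R
  have hp0 : p ≠ 0 := CharP.char_ne_zero_of_finite R p
  have hp1 : p ≠ 1 := CharP.char_ne_one R p
  have hpp : p.Prime := by
    have hl := Nat.minFac_prime hp1
    obtain ⟨k, hk⟩ := Nat.minFac_dvd p
    by_cases h0 : ((p.minFac : ℕ) : R) = 0
    · have h2 := (CharP.cast_eq_zero_iff R p _).1 h0
      rw [Nat.dvd_antisymm h2 (Nat.minFac_dvd p)]
      exact hl
    · exfalso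
      have hm : ((p.minFac : ℕ) : R) ∈ J := by
        rw [← nsmul_one]; exact J.nsmul_mem h1 _
      obtain ⟨b, _, _, b2⟩ := hinv _ hm h0
      have h3 : ((p.minFac : ℕ) : R) * (k : R) = 0 := by
        rw [← Nat.cast_mul, ← hk]; exact CharP.cast_eq_zero R p
      have h4 : (k : R) = 0 := by rw [← one_mul (k : R), ← b2, mul_assoc, h3, mul_zero]
      have h5 := (CharP.cast_eq_zero_iff R p _).1 h4
      have hk0 : 0 < k := Nat.pos_of_ne_zero fun h => hp0 (by rw [hk, h, mul_zero])
      have h6 := Nat.le_of_dvd hk0 h5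
      have h7 := hl.two_le
      nlinarith
  have : Fact p.Prime := ⟨hpp⟩
  let : Algebra (ZMod p) R := ZMod.algebra R p
  let β := Module.finBasis (ZMod p) R
  have : Nonempty (Fin (Module.finrank (ZMod p) R)) := ⟨⟨0, Module.finrank_pos⟩⟩
  let φ := Algebra.leftMulMatrix β
  have hφ : Function.Injective φ := Algebra.leftMulMatrix_injective β
  let W := (AddSubgroup.toZModSubmodule p J).map φ.toLinearMap
  have hW : ∀ w, w ∈ W ↔ ∃ a ∈ J, φ a = w := fun w => Iff.rfl
  have hc := jd_core W ((hW _).2 ⟨1, h1, map_one φ⟩) (fun a ha b hb => by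
      obtain ⟨a, ha', rfl⟩ := (hW _).1 ha
      obtain ⟨b, hb', rfl⟩ := (hW _).1 hb
      exact (hW _).2 ⟨a * b * a, jd_hua J hinv a ha' b hb', by rw [map_mul, map_mul]⟩) (fun a ha ha0 => by
      obtain ⟨a, ha', rfl⟩ := (hW _).1 ha
      obtain ⟨b, _, b1, _⟩ := hinv a ha' (fun h => ha0 (by rw [h, map_zero]))
      have := congrArg (fun z => (φ z).det) b1
      simp only [map_mul, map_one, Matrix.det_mul, Matrix.det_one] at this
      exact left_ne_zero_of_mul_eq_one this)
  intro a ha b hb
  apply hφ
  rw [map_mul, map_mul]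
  exact hc _ ((hW _).2 ⟨a, ha, rfl⟩) _ ((hW _).2 ⟨b, hb, rfl⟩)

/-- (JD) a finite additive subgroup of units closed under inverses is a field -/
theorem jd [Finite R] (J : AddSubgroup R) (h1 : (1 : R) ∈ J)
    (hinv : ∀ a ∈ J, a ≠ 0 → ∃ b ∈ J, a * b = 1 ∧ b * a = 1) :
    ∀ a ∈ J, ∀ b ∈ J, a * b ∈ J ∧ a * b = b * a := by
  have hc := jd_comm J h1 hinv
  have hU := jd_hua J hinv
  have hsq : ∀ a ∈ J, a * a ∈ J := fun a ha => by simpa using hU a ha 1 h1
  intro a ha b hb
  refine ⟨?_, hc a ha b hb⟩
  by_cases h2 : (1 + 1 : R) = 0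
  · let f : J → J := fun x => ⟨x.1 * x.1, hsq _ x.2⟩
    have hf : Function.Injective f := by
      intro x y h
      have h' : x.1 * x.1 = y.1 * y.1 := congrArg Subtype.val h
      by_contra hne
      have hne' : x.1 - y.1 ≠ 0 := fun h0 => hne (Subtype.ext (sub_eq_zero.1 h0))
      obtain ⟨c, _, _, c2⟩ := hinv _ (J.sub_mem x.2 y.2) hne'
      have e : (x.1 - y.1) * (x.1 - y.1) = 0 := by
        have : (x.1 - y.1) * (x.1 - y.1) = x.1 * x.1 - y.1 * y.1 + (x.1 * y.1 - y.1 * x.1) +
            (1 + 1) * (y.1 * y.1 - x.1 * y.1) := by noncomm_ring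
        rw [this, h', h2, hc _ x.2 _ y.2]; simp
      apply hne'
      rw [← one_mul (x.1 - y.1), ← c2, mul_assoc, e, mul_zero]
    obtain ⟨c, hc'⟩ := Finite.injective_iff_surjective.1 hf ⟨a, ha⟩
    have h3 : a = c.1 * c.1 := (congrArg Subtype.val hc').symm
    have : a * b = c.1 * b * c.1 := by rw [h3, mul_assoc c.1 c.1 b, mul_assoc c.1 b c.1, ← hc _ c.2 _ hb]
    rw [this]
    exact hU _ c.2 _ hb
  · obtain ⟨h, hh, k1, k2⟩ := hinv _ (J.add_mem h1 h1) h2
    have e1 : a * b + a * b ∈ J := by
      have : a * b + a * b = (a + b) * (a + b) - a * a - b * b := by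
        nth_rewrite 2 [hc a ha b hb]; noncomm_ring
      rw [this]
      exact J.sub_mem (J.sub_mem (hsq _ (J.add_mem ha hb)) (hsq _ ha)) (hsq _ hb)
    have e2 := hU h hh _ (J.add_mem e1 e1)
    have : h * (a * b + a * b + (a * b + a * b)) * h = a * b := by
      calc h * (a * b + a * b + (a * b + a * b)) * h = (h * (1 + 1)) * (a * b) * ((1 + 1) * h) := by noncomm_ring
        _ = a * b := by rw [k1, k2, one_mul, mul_one]
    rwa [this] at e2

end ring

end CL.FS
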