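/-
S1144: a root group acting quadratically is the additive group of a field.
-/
import Cfsg.Agent.CHEV.FS.Jd

set_option autoImplicit false

namespace CL.FS

universe u

/-- `Q = V ⧸ Z` is a finite abelian group, `M = Additive Q`, `R = AddMonoid.End M` a finite non-trivial ring, `T a ∈ R` is
induced by `S a`; `T (a * b) = T a + T b`, `T e = 1`, `T a` is a unit for `a ≠ 1`, so `T` is injective.  `jd` for the range
`J` of `T`: `J` is a commutative subring `K` in which non-zero elements are invertible (`IsField.toField`); `M` is a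
`K`-module by `Module.compHom`. -/
theorem exists_module {A V : Type u} [Group A] [Group V] [Finite A] [Finite V] (Z : Subgroup V) [Z.Normal]
    (hc : ∀ v w : V, ∃ z ∈ Z, v * w = w * v * z) (ne : ∃ v, v ∉ Z) (S : A → V →* V) (hZ : ∀ a, ∀ z ∈ Z, S a z ∈ Z)
    (hadd : ∀ a b v, ∃ z ∈ Z, S (a * b) v = S a v * S b v * z) (e : A) (he : ∀ v, S e v = v)
    (hinv : ∀ a, a ≠ 1 → ∃ b, ∀ v, (∃ z ∈ Z, S a (S b v) = v * z) ∧ ∃ z ∈ Z, S b (S a v) = v * z) :
    ∃ (K : Type u) (_ : Field K) (x : K ≃ A) (M : Type u) (_ : AddCommGroup M) (_ : Module K M) (π : V → M),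
      x 1 = e ∧ (∀ t u, x (t + u) = x t * x u) ∧ (∀ v w, π (v * w) = π v + π w) ∧ (∀ v, π v = 0 ↔ v ∈ Z) ∧
      ∀ t v, π (S (x t) v) = t • π v := by
  classical
  have hq : ∀ a b : V ⧸ Z, a * b = b * a := fun a b => by
    obtain ⟨v, rfl⟩ := QuotientGroup.mk_surjective a
    obtain ⟨w, rfl⟩ := QuotientGroup.mk_surjective b
    obtain ⟨z, hz, e⟩ := hc v w
    rw [← QuotientGroup.mk_mul, ← QuotientGroup.mk_mul, e, QuotientGroup.mk_mul_of_mem _ hz]
  let _ : CommGroup (V ⧸ Z) := { (inferInstance : Group (V ⧸ Z)) with mul_comm := hq }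
  let T : A → AddMonoid.End (Additive (V ⧸ Z)) := fun a =>
    MonoidHom.toAdditive (QuotientGroup.map Z Z (S a) fun z hz => hZ a z hz)
  have Tap : ∀ a (v : V), T a (Additive.ofMul (v : V ⧸ Z)) = Additive.ofMul (S a v : V ⧸ Z) := fun _ _ => rfl
  have ext : ∀ f g : AddMonoid.End (Additive (V ⧸ Z)),
      (∀ v : V, f (Additive.ofMul (v : V ⧸ Z)) = g (Additive.ofMul (v : V ⧸ Z))) → f = g := fun f g h =>
    AddMonoidHom.ext fun q => by
      obtain ⟨v, hv⟩ := QuotientGroup.mk_surjective q.toMul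
      have := h v
      rwa [hv] at this
  clear_value T
  have Tmul : ∀ a b, T (a * b) = T a + T b := fun a b => ext _ _ fun v => by
    obtain ⟨z, hz, h⟩ := hadd a b v
    show _ = T a _ + T b _
    rw [Tap, Tap, Tap, h, QuotientGroup.mk_mul_of_mem _ hz]
    rfl
  have Te : T e = 1 := ext _ _ fun v => by rw [Tap, he]; rfl
  have T1 : T 1 = 0 := by simpa using Tmul 1 1
  have Tinv : ∀ a, T a⁻¹ = -T a := fun a => eq_neg_of_add_eq_zero_left (by rw [← Tmul, inv_mul_cancel, T1])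
  have Tu : ∀ a, a ≠ 1 → ∃ b, T a * T b = 1 ∧ T b * T a = 1 := fun a ha => by
    obtain ⟨b, hb⟩ := hinv a ha
    refine ⟨b, ext _ _ fun v => ?_, ext _ _ fun v => ?_⟩
    · obtain ⟨z, hz, h⟩ := (hb v).1
      show T a (T b _) = _
      rw [Tap, Tap, h, QuotientGroup.mk_mul_of_mem _ hz]
      rfl
    · obtain ⟨z, hz, h⟩ := (hb v).2
      show T b (T a _) = _
      rw [Tap, Tap, h, QuotientGroup.mk_mul_of_mem _ hz]
      rfl
  have nt : (1 : AddMonoid.End (Additive (V ⧸ Z))) ≠ 0 := fun h => by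
    obtain ⟨v, hv⟩ := ne
    exact hv ((QuotientGroup.eq_one_iff v).1 (DFunLike.congr_fun h (Additive.ofMul (v : V ⧸ Z))))
  have T0 : ∀ a, T a = 0 → a = 1 := fun a h => by
    by_contra ha
    obtain ⟨b, hb, -⟩ := Tu a ha
    rw [h, zero_mul] at hb
    exact nt hb.symm
  have inj : Function.Injective T := fun a b h => mul_inv_eq_one.1 (T0 _ (by rw [Tmul, Tinv, h, add_neg_cancel]))
  let J : AddSubgroup (AddMonoid.End (Additive (V ⧸ Z))) :=
    { carrier := Set.range T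
      add_mem' := by rintro _ _ ⟨a, rfl⟩ ⟨b, rfl⟩; exact ⟨_, Tmul a b⟩
      zero_mem' := ⟨1, T1⟩
      neg_mem' := by rintro _ ⟨a, rfl⟩; exact ⟨_, Tinv a⟩ }
  have hi : ∀ a ∈ J, a ≠ 0 → ∃ b ∈ J, a * b = 1 ∧ b * a = 1 := by
    rintro _ ⟨a, rfl⟩ h
    obtain ⟨b, hb⟩ := Tu a fun h' => h (h' ▸ T1)
    exact ⟨_, ⟨b, rfl⟩, hb⟩
  have : Finite (AddMonoid.End (Additive (V ⧸ Z))) := DFunLike.finite _
  have hj := jd J ⟨e, Te⟩ hi
  let R : Subring (AddMonoid.End (Additive (V ⧸ Z))) :=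
    { J with mul_mem' := fun {a b} ha hb => (hj a ha b hb).1, one_mem' := ⟨e, Te⟩ }
  have hf : IsField R := ⟨⟨1, 0, fun h => nt (congrArg Subtype.val h)⟩, fun a b => Subtype.ext (hj _ a.2 _ b.2).2,
    fun {a} h => by
      obtain ⟨b, hb, h1, -⟩ := hi a a.2 fun h' => h (Subtype.ext h')
      exact ⟨⟨b, hb⟩, Subtype.ext h1⟩⟩
  let x : R ≃ A := (Equiv.ofInjective T inj).symm
  have hx : ∀ t : R, T (x t) = t := fun t => Equiv.apply_ofInjective_symm inj t
  let _ := hf.toField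
  refine ⟨↥R, inferInstance, x, Additive (V ⧸ Z), inferInstance, Module.compHom _ R.subtype,
    fun v => Additive.ofMul (v : V ⧸ Z), inj ((hx 1).trans Te.symm), fun t u => inj ?_, fun _ _ => rfl,
    fun v => QuotientGroup.eq_one_iff v, fun t v => ?_⟩
  · rw [Tmul, hx, hx, hx]
    rfl
  · exact (Tap _ v).symm.trans (DFunLike.congr_fun (hx t) _)

end CL.FS
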